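import Cfsg.Agent.H764.J7.HH
import Cfsg.Agent.H41.ChiefFactor
import Cfsg.Agent.H39.ChiefTrace
import Cfsg.Agent.H215.J7.Iface

/-! # S3068, T7c (`tools/plans/S3068.md`) -/
set_option autoImplicit false

namespace Cfsg.Agent.H764.J7
open Cfsg Subgroup Cfsg.Agent.Lib Cfsg.Agent.H215.J7
open scoped commutatorElement

universe u

variable {G : Type u} [Group G]

theorem pow_conj {y u v : G} (h : y * u * y⁻¹ = v * u) (hyv : y * v = v * y) (j : ℕ) :
    y ^ j * u * (y ^ j)⁻¹ = v ^ j * u := by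
  induction j with
  | zero => simp
  | succ j ih =>
    have h1 : y ^ (j + 1) * u * (y ^ (j + 1))⁻¹ = y * (y ^ j * u * (y ^ j)⁻¹) * y⁻¹ := by
      rw [pow_succ']
      group
    have h2 : y * v ^ j * y⁻¹ = v ^ j := by
      rw [mul_inv_eq_iff_eq_mul]
      exact ((show Commute y v from hyv).pow_right j)
    have h3 : y * (v ^ j * u) * y⁻¹ = (y * v ^ j * y⁻¹) * (y * u * y⁻¹) := by group
    rw [h1, ih, h3, h2, h, ← mul_assoc, ← pow_succ]

theorem eq_one_of_cop {p : ℕ} [Fact p.Prime] {Q : Subgroup G} (hQ : IsPGroup p Q) {v : G} (hv : v ∈ Q) {n : ℕ}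
    (hn : n.Coprime p) (h : v ^ n = 1) : v = 1 := by
  obtain ⟨j, hj⟩ := hQ ⟨v, hv⟩
  have h1 : v ^ p ^ j = 1 := congrArg Subtype.val hj
  exact orderOf_eq_one_iff.1 (Nat.eq_one_of_dvd_coprimes (hn.pow_right j) (orderOf_dvd_of_pow_eq_one h)
    (orderOf_dvd_of_pow_eq_one h1))

theorem comm_of_cop {p : ℕ} [Fact p.Prime] {Q : Subgroup G} (hQ : IsPGroup p Q) {y u : G} (hv : ⁅y, u⁆ ∈ Q)
    (hyv : y * ⁅y, u⁆ = ⁅y, u⁆ * y) {n : ℕ} (hn : n.Coprime p) (h : y ^ n = 1) : ⁅y, u⁆ = 1 := by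
  have h1 : y * u * y⁻¹ = ⁅y, u⁆ * u := by rw [commutatorElement_def]; group
  have h2 := pow_conj h1 hyv n
  rw [h, one_mul, inv_one, mul_one] at h2
  exact eq_one_of_cop hQ hv hn (mul_eq_right.1 h2.symm)

variable [Finite G] {p : ℕ} [hpf : Fact p.Prime]

/-- the action on a chief factor below `O_p(G)` -/
theorem step_chief (hp : 7 ≤ p) {N : Subgroup G} (hN : N.Normal) (hQN : pCore p G ≤ N)
    (hNp : ¬ p ∣ (pCore p G).relIndex N) {U V : Subgroup G} (hUV : IsChiefFactor U V) (hUQ : U ≤ pCore p G) {a : G}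
    (ha : iterCommutator U (zpowers a) 6 ≤ V) {n : G} (hn : n ∈ N) {u : G} (hu : u ∈ U) : ⁅⁅n, a⁆, u⁆ ∈ V := by
  have hQn : (pCore p G).Normal := Cores.pCore_normal p
  have hQp : IsPGroup p (pCore p G) := Cores.pCore_isPGroup p
  obtain ⟨E, i1, i2, π, ρ, hsurj, hadd, hker, hcard, hρ⟩ := H41.ChiefFactor.exists_chief_rep hUV hQn hQp hUQ
  have hinv : ∀ a : ↥U, π a⁻¹ = -π a := fun a => OddOrderCharacters.PF9.SectionModule.pi_inv hadd a
  have hfinE : Finite E := Finite.of_surjective π hsurj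
  have hfd : FiniteDimensional (ZMod p) E := Module.Finite.of_finite
  have hQ1 : ∀ r ∈ pCore p G, ρ r = 1 := by
    intro r hr
    ext v
    obtain ⟨u, rfl⟩ := hsurj v
    rw [hρ, Module.End.one_apply, ← sub_eq_zero, sub_eq_add_neg, ← hinv, ← hadd, hker]
    have h1 := H41.ChiefFactor.comm_mem hUV hQn hQp hUQ u.2 hr
    have h2 := V.inv_mem h1
    change r * u * r⁻¹ * (u : G)⁻¹ ∈ V
    have h3 : r * u * r⁻¹ * (u : G)⁻¹ = ((u : G) * r * (u : G)⁻¹ * r⁻¹)⁻¹ := by group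
    rw [h3]
    exact h2
  set Γ : Subgroup G := N ⊔ zpowers a with hΓ
  have haΓ : a ∈ Γ := (le_sup_right : zpowers a ≤ Γ) (mem_zpowers a)
  have hNΓ : N ≤ Γ := le_sup_left
  let σ : Γ →* (E ≃ₗ[ZMod p] E) :=
    (LinearMap.GeneralLinearGroup.generalLinearEquiv (ZMod p) E).toMonoidHom.comp (ρ.toHomUnits.comp Γ.subtype)
  have hσ : ∀ g : Γ, ((σ g : E ≃ₗ[ZMod p] E) : Module.End (ZMod p) E) = ρ g := fun g => rfl
  have hN' : (N.subgroupOf Γ).Normal := hN.subgroupOf Γ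
  have htop : N.subgroupOf Γ ⊔ zpowers (⟨a, haΓ⟩ : Γ) = ⊤ := by
    have h1 : zpowers (⟨a, haΓ⟩ : Γ) = (zpowers a).subgroupOf Γ := by
      ext ⟨x, hx⟩
      rw [mem_subgroupOf, mem_zpowers_iff, mem_zpowers_iff]
      constructor
      · rintro ⟨k, hk⟩
        exact ⟨k, congrArg Subtype.val hk⟩
      · rintro ⟨k, hk⟩
        exact ⟨k, Subtype.ext hk⟩
    rw [h1, ← Subgroup.subgroupOf_sup hNΓ (le_sup_right : zpowers a ≤ Γ), subgroupOf_self]
  have hcardN : ¬ p ∣ Nat.card ((N.subgroupOf Γ).map σ) := by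
    intro hd
    apply hNp
    have h1 := Subgroup.relIndex_ker (K := N.subgroupOf Γ) σ
    have h2 : (pCore p G).subgroupOf Γ ≤ σ.ker := by
      intro x hx
      rw [mem_subgroupOf] at hx
      rw [MonoidHom.mem_ker]
      apply LinearEquiv.toLinearMap_injective
      rw [hσ, hQ1 _ hx]
      rfl
    have h3 := Subgroup.relIndex_dvd_of_le_left (N.subgroupOf Γ) h2
    rw [Subgroup.relIndex_subgroupOf hNΓ] at h3
    rw [h1] at h3
    exact hd.trans h3
  have hx : (((σ ⟨a, haΓ⟩ : E ≃ₗ[ZMod p] E) : Module.End (ZMod p) E) - 1) ^ 6 = 0 := by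
    rw [hσ]
    ext v
    obtain ⟨u, rfl⟩ := hsurj v
    obtain ⟨w, hw, hw2⟩ := H41.ChiefFactor.sub_one_pow_apply hUV.2.1 π ρ hadd hρ a 6 u
    rw [hw2, LinearMap.zero_apply, hker]
    exact ha hw
  have h1 := hh hp σ (N.subgroupOf Γ) hN' ⟨a, haΓ⟩ htop hcardN hx ⟨n, hNΓ hn⟩ hn
  have h2 : ρ ⁅n, a⁆ = 1 := by
    have h3 : σ ⁅(⟨n, hNΓ hn⟩ : Γ), ⟨a, haΓ⟩⁆ = 1 := by
      rw [map_commutatorElement, commutatorElement_eq_one_iff_mul_comm]
      exact h1.symm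
    have h4 := hσ ⁅(⟨n, hNΓ hn⟩ : Γ), ⟨a, haΓ⟩⁆
    rw [h3] at h4
    exact h4.symm
  have h3 := hρ ⁅n, a⁆ ⟨u, hu⟩
  rw [h2, Module.End.one_apply] at h3
  have h5 : π (⟨⁅n, a⁆ * u * ⁅n, a⁆⁻¹, hUV.2.1.conj_mem u hu _⟩ * (⟨u, hu⟩ : U)⁻¹) = 0 := by
    rw [hadd, hinv, h3]
    exact add_neg_cancel _
  rw [hker] at h5
  exact h5

/-- the elements of `N` acting trivially on all chief factors below `D` -/
def cenChief (N D : Subgroup G) : Subgroup G where
  carrier := {g | g ∈ N ∧ ∀ U V : Subgroup G, IsChiefFactor U V → U ≤ D → ∀ u ∈ U, ⁅g, u⁆ ∈ V}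
  mul_mem' := by
    rintro g h ⟨hg, hg'⟩ ⟨hh, hh'⟩
    refine ⟨mul_mem hg hh, fun U V hUV hUD u hu => ?_⟩
    have h1 : ⁅g * h, u⁆ = g * ⁅h, u⁆ * g⁻¹ * ⁅g, u⁆ := by simp only [commutatorElement_def]; group
    rw [h1]
    exact mul_mem (hUV.2.2.1.conj_mem _ (hh' U V hUV hUD u hu) g) (hg' U V hUV hUD u hu)
  one_mem' := ⟨one_mem _, fun U V _ _ u _ => by rw [commutatorElement_one_left]; exact one_mem _⟩
  inv_mem' := by
    rintro g ⟨hg, hg'⟩
    refine ⟨inv_mem hg, fun U V hUV hUD u hu => ?_⟩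
    have h1 : ⁅g⁻¹, u⁆ = g⁻¹ * ⁅g, u⁆⁻¹ * g⁻¹⁻¹ := by simp only [commutatorElement_def]; group
    rw [h1]
    exact hUV.2.2.1.conj_mem _ (inv_mem (hg' U V hUV hUD u hu)) g⁻¹

theorem cenChief_normal {N D : Subgroup G} (hN : N.Normal) : (cenChief N D).Normal := by
  refine ⟨fun g hg x => ⟨hN.conj_mem g hg.1 x, fun U V hUV hUD u hu => ?_⟩⟩
  have h1 : ⁅x * g * x⁻¹, u⁆ = x * ⁅g, x⁻¹ * u * x⁻¹⁻¹⁆ * x⁻¹ := by simp only [commutatorElement_def]; group
  rw [h1]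
  exact hUV.2.2.1.conj_mem _ (hg.2 U V hUV hUD _ (hUV.2.1.conj_mem u hu x⁻¹)) x

theorem cenChief_le (hc : centralizer (pCore p G : Set G) ≤ pCore p G) {D N : Subgroup G} (hD : D.Normal)
    (hDQ : D ≤ pCore p G) (hcen : pCore p G ⊓ centralizer (D : Set G) ≤ D) (hN : N.Normal) :
    cenChief N D ≤ pCore p G := by
  have hQn : (pCore p G).Normal := Cores.pCore_normal p
  have hQp : IsPGroup p (pCore p G) := Cores.pCore_isPGroup p
  have key : ∀ y ∈ cenChief N D, ∀ n : ℕ, n.Coprime p → y ^ n = 1 → y = 1 := by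
    intro y hy n hn hyn
    -- `y` centralizes `D`
    have h1 : ∀ (k : ℕ) (U : Subgroup G), Nat.card U = k → U.Normal → U ≤ D → ∀ u ∈ U, ⁅y, u⁆ = 1 := by
      intro k
      induction k using Nat.strong_induction_on with
      | _ k ih =>
      intro U hk hU hUD u hu
      by_cases hb : U = ⊥
      · rw [hb, mem_bot] at hu
        rw [hu, commutatorElement_one_right]
      · obtain ⟨V, hUV⟩ := H39.exists_chief hU hb
        have h2 : ⁅y, u⁆ ∈ V := hy.2 U V hUV hUD u hu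
        have h3 : Nat.card V < k := by
          rw [← hk]
          exact lt_of_le_of_ne (Nat.le_of_dvd Nat.card_pos (Subgroup.card_dvd_of_le hUV.1.le)) fun h =>
            hUV.1.ne (Subgroup.eq_of_le_of_card_ge hUV.1.le h.ge)
        have h4 := ih _ h3 V rfl hUV.2.2.1 (hUV.1.le.trans hUD) _ h2
        rw [commutatorElement_eq_one_iff_mul_comm] at h4
        exact comm_of_cop hQp (hDQ (hUD (hUV.1.le h2))) h4 hn hyn
    have hyD : ∀ d ∈ D, y * d = d * y := fun d hd =>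
      commutatorElement_eq_one_iff_mul_comm.1 (h1 _ D rfl hD le_rfl d hd)
    have hyQ : y ∈ centralizer (pCore p G : Set G) := by
      rw [mem_centralizer_iff]
      intro x hx
      have h5 : ⁅y, x⁆ ∈ pCore p G := by
        rw [commutatorElement_def]
        exact mul_mem (hQn.conj_mem x hx y) (inv_mem hx)
      have h6 : ⁅y, x⁆ ∈ centralizer (D : Set G) := by
        rw [mem_centralizer_iff]
        intro d hd
        have h7 := hyD _ (hD.conj_mem d hd x⁻¹)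
        have h8 := hyD _ hd
        rw [inv_inv] at h7
        have h9 : y⁻¹ * (x⁻¹ * d * x) * y = x⁻¹ * d * x := by
          rw [mul_assoc, ← h7, inv_mul_cancel_left]
        have h10 : y * d * y⁻¹ = d := by rw [h8, mul_inv_cancel_right]
        have h11 : ⁅y, x⁆ * d * ⁅y, x⁆⁻¹ = y * x * (y⁻¹ * (x⁻¹ * d * x) * y) * x⁻¹ * y⁻¹ := by
          simp only [commutatorElement_def]; group
        rw [h9] at h11
        have h12 : y * x * (x⁻¹ * d * x) * x⁻¹ * y⁻¹ = y * d * y⁻¹ := by group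
        rw [h12, h10, mul_inv_eq_iff_eq_mul] at h11
        exact h11.symm
      have h13 : ⁅y, x⁆ ∈ D := hcen (Subgroup.mem_inf.2 ⟨h5, h6⟩)
      have h14 := comm_of_cop hQp h5 (hyD _ h13) hn hyn
      exact (commutatorElement_eq_one_iff_mul_comm.1 h14).symm
    exact eq_one_of_cop hQp (hc hyQ) hn hyn
  refine Cores.le_pCore (cenChief_normal hN) ?_
  rintro ⟨g, hg⟩
  obtain ⟨s, r, hr, hs⟩ := Nat.exists_eq_pow_mul_and_not_dvd (orderOf_pos g).ne' p hpf.out.ne_one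
  refine ⟨s, Subtype.ext ?_⟩
  show g ^ p ^ s = 1
  refine key _ (pow_mem hg _) r ((Nat.Prime.coprime_iff_not_dvd hpf.out).2 hr).symm ?_
  rw [← pow_mul, ← hs]
  exact pow_orderOf_eq_one g

/-- **T7c** -/
theorem t7c_hh (hp : 7 ≤ p) (hc : centralizer (pCore p G : Set G) ≤ pCore p G) {D N A : Subgroup G} (hD : D.Normal)
    (hDQ : D ≤ pCore p G) (hcen : pCore p G ⊓ centralizer (D : Set G) ≤ D) (hN : N.Normal) (hQN : pCore p G ≤ N)
    (hNp : ¬ p ∣ (pCore p G).relIndex N) (hA : IsPGroup p A)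
    (hb : ∀ U V : Subgroup G, IsChiefFactor U V → U ≤ D → ∀ a ∈ A, iterCommutator U (zpowers a) 6 ≤ V) :
    ⁅N, A⁆ ≤ pCore p G := by
  rw [commutator_le]
  intro n hn a ha
  refine cenChief_le hc hD hDQ hcen hN ⟨?_, fun U V hUV hUD u hu =>
    step_chief hp hN hQN hNp hUV (hUD.trans hDQ) (hb U V hUV hUD a ha) hn hu⟩
  have h1 : ⁅n, a⁆ = n * (a * n⁻¹ * a⁻¹) := by rw [commutatorElement_def]; group
  rw [h1]
  exact mul_mem hn (hN.conj_mem _ (inv_mem hn) a)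

end Cfsg.Agent.H764.J7
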