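import Cfsg.Agent.S0633
import Cfsg.Agent.Lib.PSolvable
import Cfsg.Agent.Lib.Cores

/-! # S3068, T7c: Hall–Higman for a normal `p'`-subgroup and an element with `(a - 1)^6 = 0`, `p ≥ 7` -/
set_option autoImplicit false

namespace Cfsg.Agent.H764.J7
open Cfsg Subgroup Cfsg.Agent.Lib
open scoped commutatorElement

theorem six_ne {q m : ℕ} (hq : q.Prime) (h : 6 = q ^ m) : False := by
  have h2 : 2 ∣ q ^ m := by rw [← h]; norm_num
  have h3 : 3 ∣ q ^ m := by rw [← h]; norm_num
  have h4 := (Nat.prime_dvd_prime_iff_eq Nat.prime_two hq).1 (Nat.prime_two.dvd_of_dvd_pow h2)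
  have h5 := (Nat.prime_dvd_prime_iff_eq Nat.prime_three hq).1 (Nat.prime_three.dvd_of_dvd_pow h3)
  omega

/-- `A` normal `p'`-subgroup `K` of `H = K⟨x⟩` with `x^p = 1`, `x ∉ C(K)`: `O_p(H) = 1`. -/
theorem core_bot {H : Type*} [Group H] [Finite H] {p : ℕ} [Fact p.Prime] (K : Subgroup H) (hKn : K.Normal)
    (hK : ¬ p ∣ Nat.card K) (x : H) (hx : x ^ p = 1) (ht : K ⊔ zpowers x = ⊤) (hc : ¬ ∀ k ∈ K, x * k = k * x) :
    pCore p H = ⊥ := by
  have hp : p.Prime := Fact.out
  have hPp : IsPGroup p (pCore p H) := Cores.pCore_isPGroup p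
  have hPn : (pCore p H).Normal := Cores.pCore_normal p
  -- `P` centralizes `K`
  have hdis : K ⊓ pCore p H = ⊥ := by
    rw [eq_bot_iff]
    intro y hy
    obtain ⟨j, hj⟩ := hPp ⟨y, hy.2⟩
    have h1 : y ^ p ^ j = 1 := congrArg Subtype.val hj
    have h2 : orderOf y ∣ p ^ j := orderOf_dvd_of_pow_eq_one h1
    have h3 : orderOf y ∣ Nat.card K := by
      have := orderOf_dvd_natCard (⟨y, hy.1⟩ : K)
      rwa [orderOf_mk] at this
    have h4 : Nat.Coprime (p ^ j) (Nat.card K) := Nat.Coprime.pow_left _ ((Nat.Prime.coprime_iff_not_dvd hp).2 hK)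
    have h5 : orderOf y = 1 := Nat.eq_one_of_dvd_coprimes h4 h2 h3
    exact orderOf_eq_one_iff.1 h5
  have hcomm : ∀ k ∈ K, ∀ y ∈ pCore p H, y * k = k * y := by
    intro k hk y hy
    have h1 : ⁅y, k⁆ ∈ K ⊓ pCore p H := by
      refine Subgroup.mem_inf.2 ⟨?_, ?_⟩
      · rw [commutatorElement_def]
        exact mul_mem (hKn.conj_mem k hk y) (inv_mem hk)
      · rw [commutatorElement_def]
        have : y * k * y⁻¹ * k⁻¹ = y * (k * y⁻¹ * k⁻¹) := by group
        rw [this]
        exact mul_mem hy (hPn.conj_mem _ (inv_mem hy) k)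
    rw [hdis, mem_bot, commutatorElement_eq_one_iff_mul_comm] at h1
    exact h1
  by_contra hne
  apply hc
  intro k hk
  refine hcomm k hk x ?_
  -- `|H| = |K| p`
  have hxK : ∀ y : H, ∃ j : ℕ, x ^ j * y ∈ K := by
    intro y
    have hy : y ∈ K ⊔ zpowers x := by rw [ht]; exact mem_top y
    rw [sup_comm, Subgroup.mem_sup_of_normal_right] at hy
    obtain ⟨u, hu, v, hv, rfl⟩ := hy
    obtain ⟨i, hi⟩ := (Subgroup.mem_zpowers_iff.1 hu)
    obtain ⟨j, hj⟩ : ∃ j : ℕ, x ^ j = u⁻¹ := by
      have h0 : u⁻¹ ∈ zpowers x := (zpowers x).inv_mem hu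
      have h1 : u⁻¹ ∈ Submonoid.powers x := (mem_powers_iff_mem_zpowers).2 h0
      obtain ⟨j, hj⟩ := h1
      exact ⟨j, hj⟩
    exact ⟨j, by rw [hj, inv_mul_cancel_left]; exact hv⟩
  -- Sylow
  obtain ⟨T, hT⟩ := (IsPGroup.of_card (p := p) (n := orderOf x |>.factorization p) (G := zpowers x) (by
    have h1 : orderOf x ∣ p := orderOf_dvd_of_pow_eq_one hx
    rw [Nat.card_zpowers]
    rcases (Nat.dvd_prime hp).1 h1 with h2 | h2
    · rw [h2]; simp
    · rw [h2]; simp [Nat.Prime.factorization_self hp])).exists_le_sylow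
  have hPT : pCore p H ≤ T := by
    have := hPp.exists_le_sylow
    obtain ⟨T', hT'⟩ := this
    obtain ⟨g, hg⟩ := MulAction.exists_smul_eq H T' T
    intro y hy
    rw [← hg]
    rw [Sylow.coe_subgroup_smul]
    rw [Subgroup.mem_pointwise_smul_iff_inv_smul_mem]
    refine hT' ?_
    have := hPn.conj_mem y hy g⁻¹
    simpa using this
  -- `T` embeds in `H / K`, of order dividing `p`
  have hTp : Nat.card T ∣ p := by
    have h1 : K ⊓ (T : Subgroup H) = ⊥ := by
      rw [eq_bot_iff]
      intro y hy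
      obtain ⟨j, hj⟩ := T.2 ⟨y, hy.2⟩
      have h1 : y ^ p ^ j = 1 := congrArg Subtype.val hj
      have h2 : orderOf y ∣ p ^ j := orderOf_dvd_of_pow_eq_one h1
      have h3 : orderOf y ∣ Nat.card K := by
        have := orderOf_dvd_natCard (⟨y, hy.1⟩ : K)
        rwa [orderOf_mk] at this
      have h4 : Nat.Coprime (p ^ j) (Nat.card K) := Nat.Coprime.pow_left _ ((Nat.Prime.coprime_iff_not_dvd hp).2 hK)
      exact orderOf_eq_one_iff.1 (Nat.eq_one_of_dvd_coprimes h4 h2 h3)
    -- every element of `T` has `p`-th power in `K`... use the index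
    have h2 : Nat.card (H ⧸ K) ∣ p := by
      let f : zpowers x →* H ⧸ K := (QuotientGroup.mk' K).comp (zpowers x).subtype
      have hf : Function.Surjective f := by
        intro y
        obtain ⟨y, rfl⟩ := QuotientGroup.mk_surjective y
        obtain ⟨j, hj⟩ := hxK y
        refine ⟨⟨(x ^ j)⁻¹, inv_mem (pow_mem (mem_zpowers x) j)⟩, ?_⟩
        show (((x ^ j)⁻¹ : H) : H ⧸ K) = y
        rw [QuotientGroup.eq, inv_inv]
        exact hj
      have h3 := Subgroup.card_dvd_of_surjective f hf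
      refine h3.trans ?_
      rw [Nat.card_zpowers]
      exact orderOf_dvd_of_pow_eq_one hx
    have h3 : Nat.card (T : Subgroup H) ∣ Nat.card (H ⧸ K) := by
      let f : T →* H ⧸ K := (QuotientGroup.mk' K).comp (T : Subgroup H).subtype
      refine Subgroup.card_dvd_of_injective f ?_
      rw [injective_iff_map_eq_one]
      rintro ⟨y, hy⟩ h4
      have h5 : (y : H ⧸ K) = 1 := h4
      rw [QuotientGroup.eq_one_iff] at h5
      have : y ∈ K ⊓ (T : Subgroup H) := ⟨h5, hy⟩
      rw [h1, mem_bot] at this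
      exact Subtype.ext this
    exact h3.trans h2
  have hPc : p ∣ Nat.card (pCore p H) := by
    obtain ⟨j, hj⟩ := IsPGroup.iff_card.1 hPp
    rcases Nat.eq_zero_or_pos j with h1 | h1
    · exfalso
      apply hne
      rw [h1, pow_zero] at hj
      exact Subgroup.card_eq_one.1 hj
    · rw [hj]
      exact dvd_pow_self p h1.ne'
  have hEq : pCore p H = (T : Subgroup H) := by
    refine Subgroup.eq_of_le_of_card_ge hPT ?_
    exact Nat.le_of_dvd Nat.card_pos (hTp.trans hPc)
  rw [hEq]
  exact hT (mem_zpowers x)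

theorem hh {F : Type*} [Field F] {p : ℕ} [hp : Fact p.Prime] [CharP F p] {V : Type*}
    [AddCommGroup V] [Module F V] [FiniteDimensional F V] {Γ : Type*} [Group Γ] [Finite Γ] (h7 : 7 ≤ p)
    (σ : Γ →* (V ≃ₗ[F] V)) (N : Subgroup Γ) (hN : N.Normal) (a : Γ) (hNa : N ⊔ zpowers a = ⊤)
    (hNp : ¬ p ∣ Nat.card (N.map σ))
    (hx : (((σ a : V ≃ₗ[F] V) : Module.End F V) - 1) ^ 6 = 0) : ∀ n ∈ N, σ a * σ n = σ n * σ a := by
  by_contra hc
  have hnt : Nontrivial V := by
    by_contra hV
    rw [not_nontrivial_iff_subsingleton] at hV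
    apply hc
    intro k hk
    ext v
    exact Subsingleton.elim _ _
  have hchar : CharP (Module.End F V) p :=
    charP_of_injective_algebraMap (algebraMap F (Module.End F V)).injective p
  have hxp : σ a ^ p = 1 := by
    have h1 : (((σ a : V ≃ₗ[F] V) : Module.End F V) - 1) ^ p = ((σ a : V ≃ₗ[F] V) : Module.End F V) ^ p - 1 := by
      rw [sub_pow_char_of_commute p (Commute.one_right _), one_pow]
    have h2 : (((σ a : V ≃ₗ[F] V) : Module.End F V) - 1) ^ p = 0 := by
      have h3 : p = 6 + (p - 6) := by omega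
      rw [h3, pow_add, hx, zero_mul]
    rw [h1, sub_eq_zero] at h2
    have h3 : ((σ a ^ p : V ≃ₗ[F] V) : Module.End F V) = ((σ a : V ≃ₗ[F] V) : Module.End F V) ^ p :=
      map_pow (LinearEquiv.automorphismGroup.toLinearMapMonoidHom (R := F) (M := V)) (σ a) p
    apply LinearEquiv.toLinearMap_injective
    rw [h3, h2]
    rfl
  have hx1 : σ a ≠ 1 := by
    intro h1
    exact hc fun k _ => by rw [h1, one_mul, mul_one]
  have hxo : orderOf (σ a) = p := orderOf_eq_prime hxp hx1
  have hs := σ.rangeRestrict_surjective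
  set K : Subgroup σ.range := N.map σ.rangeRestrict with hK
  have hKn : K.Normal := hN.map _ hs
  have hKc : Nat.card K = Nat.card (N.map σ) := by
    have h1 : K.map σ.range.subtype = N.map σ := by
      rw [hK, Subgroup.map_map]
      rfl
    rw [← h1]
    exact Nat.card_congr (K.equivMapOfInjective _ σ.range.subtype_injective).toEquiv
  have hfin : Finite σ.range := Finite.of_surjective _ hs
  have ht : K ⊔ zpowers (σ.rangeRestrict a) = ⊤ := by
    rw [hK, ← MonoidHom.map_zpowers, ← Subgroup.map_sup, hNa, ← MonoidHom.range_eq_map, MonoidHom.range_eq_top]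
    exact hs
  have hcore : pCore p σ.range = ⊥ := by
    refine core_bot K hKn (by rw [hKc]; exact hNp) (σ.rangeRestrict a) (Subtype.ext hxp) ht ?_
    intro h1
    apply hc
    intro n hn
    exact congrArg Subtype.val (h1 _ (mem_map_of_mem _ hn))
  have hsol : IsPSolvable p σ.range := by
    refine PSolvable.IsPSolvable_of_quotient p K (Or.inr ?_) ?_
    · rw [hKc]
      exact ((Nat.Prime.coprime_iff_not_dvd hp.out).2 hNp).symm
    · have hcyc : Group.IsSolvable (σ.range ⧸ K) := by
        have hsurj : Function.Surjective ((QuotientGroup.mk' K).comp (zpowers (σ.rangeRestrict a)).subtype) := by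
          rw [← MonoidHom.range_eq_top, MonoidHom.range_comp, Subgroup.range_subtype]
          have h1 : (K ⊔ zpowers (σ.rangeRestrict a)).map (QuotientGroup.mk' K) = ⊤ := by
            rw [ht, ← MonoidHom.range_eq_map, MonoidHom.range_eq_top]
            exact QuotientGroup.mk'_surjective K
          rw [Subgroup.map_sup, QuotientGroup.map_mk'_self, bot_sup_eq] at h1
          exact h1
        exact Group.isSolvable_of_surjective hsurj
      exact PSolvable.IsPSolvable_of_solvable p
  rcases S0633.bound (H := σ.range) hsol hcore (σ a) ⟨a, rfl⟩ 1 le_rfl (by rw [hxo, pow_one]) 6 hx with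
    h1 | ⟨n₀, q, m, h1, h2, h3, h4, h5, h6, h8⟩
  · rw [pow_one] at h1
    omega
  · have h9 : n₀ = 1 := by omega
    subst h9
    rw [pow_one, Nat.sub_self, pow_zero, one_mul] at h8
    rw [pow_one] at h5
    have h10 : p = 7 := by omega
    subst h10
    exact six_ne h3 h5

end Cfsg.Agent.H764.J7
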